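import Cfsg.Agent.H694.RG.Trans

/-!
# S3509, outer involutions of graph type, odd characteristic: abstract part (helper368)

`ι : K₀ →* Y`, `τ φ : MulAut Y`; one member `x i₀` acts on `K₀` as `τ`; on `ι K₀` the automorphism `φ` is `1` or `τ`.
`M ≤ ι K₀` simple, not alternating, fixed by `τ`, normalised by `L = Fix τ ∩ Fix φ`, `C_L(M) = 1`: no cover.
-/

set_option autoImplicit false
open Cfsg

namespace Cfsg.Agent.H368.G3

open MulAction Subgroup Cfsg.Agent.H106.RC Cfsg.Agent.H327.RG Cfsg.Agent.H873.RG Cfsg.Agent.H694.RG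
open Cfsg.Agent.H28.GenF (InD)
open scoped commutatorElement

section abs

variable {G Ω : Type} [Group G] [Finite G] [MulAction G Ω] {N : Subgroup G} {Y K₀ : Type} [Group Y] [Group K₀] [Finite K₀]

omit [Finite G] [Finite K₀] in
/-- the inner-diagonal members commuting with `x i₀` are given by elements of `L` -/
theorem mem_L (hE : Env G Ω N) (e : N ≃* K₀) {ι : K₀ →* Y} {τ φ : MulAut Y}
    (hcen : ∀ z, (∀ a, z * ι a = ι a * z) → z = 1) {g g₀ : G} (hg : g₀ * g = g * g₀)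
    (hτ : ∀ a, τ (ι a) = ι (act hE e g₀ a)) (hφ : (∀ a, φ (ι a) = ι a) ∨ ∀ a, φ (ι a) = τ (ι a))
    {y : Y} (hy : ∀ a, ι (act hE e g a) = y * ι a * y⁻¹) : τ y = y ∧ φ y = y := by
  have hc : ∀ a, act hE e g₀ (act hE e g a) = act hE e g (act hE e g₀ a) := fun a => by
    rw [← MulAut.mul_apply, ← MulAut.mul_apply, ← map_mul, ← map_mul, hg]
  have h1 : ∀ a, τ y * τ (ι a) * (τ y)⁻¹ = y * τ (ι a) * y⁻¹ := by
    intro a
    rw [← map_inv, ← map_mul, ← map_mul, ← hy, hτ, hc, hy, hτ]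
  have key : ∀ z : Y, (∀ a, z * τ (ι a) * z⁻¹ = y * τ (ι a) * y⁻¹) → z = y := by
    intro z hz
    have h2 : y⁻¹ * z = 1 := by
      apply hcen
      intro a
      have h3 := hz ((act hE e g₀)⁻¹ a)
      rw [hτ, MulAut.apply_inv_self] at h3
      calc y⁻¹ * z * ι a = y⁻¹ * (z * ι a * z⁻¹) * z := by group
        _ = y⁻¹ * (y * ι a * y⁻¹) * z := by rw [h3]
        _ = ι a * (y⁻¹ * z) := by group
    exact (inv_mul_eq_one.1 h2).symm
  have hτy : τ y = y := key _ h1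
  refine ⟨hτy, ?_⟩
  rcases hφ with h | h
  · apply key
    intro a
    rw [hτ]
    have h2 := congrArg φ (hy (act hE e g₀ a))
    rw [map_mul, map_mul, map_inv, h, h] at h2
    rw [← h2, hy]
  · apply key
    intro a
    have h2 : φ (y * ι a * y⁻¹) = φ y * τ (ι a) * (φ y)⁻¹ := by rw [map_mul, map_mul, map_inv, h]
    rw [← h2, ← hy, h, hy, map_mul, map_mul, map_inv, hτy]

omit [Finite G] in
/-- **The abstract theorem.** -/
theorem g3_kill [Nonempty Ω] {κ : Type} [Finite κ] (hE : Env G Ω N) (e : N ≃* K₀) (hIH : IHx (Nat.card K₀))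
    {x : κ → G} {s : κ → ℕ} (hx : PF x s) (hcov : Cov Ω x) {ι : K₀ →* Y} (hι : Function.Injective ι)
    (hcen : ∀ z, (∀ a, z * ι a = ι a * z) → z = 1) {τ φ : MulAut Y} {i₀ : κ}
    (hτ : ∀ a, τ (ι a) = ι (act hE e (x i₀) a)) (hφ : (∀ a, φ (ι a) = ι a) ∨ ∀ a, φ (ι a) = τ (ι a))
    (hIn : ∀ j, j ≠ i₀ → act hE e (x j) ∈ InD ι) {M : Subgroup Y} (hMι : M ≤ ι.range) (hMne : M ≠ ι.range)
    (hM : NSA M) (hMτ : ∀ m ∈ M, τ m = m)
    (hMn : ∀ y, τ y = y → φ y = y → ∀ m ∈ M, y * m * y⁻¹ ∈ M)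
    (hMc : ∀ y, τ y = y → φ y = y → (∀ m ∈ M, y * m = m * y) → y = 1)
    (hfin : ∃ u ∈ M, u ≠ 1 ∧ ∃ a b : K₀, ι a * u = u * ι a ∧ ι b * u = u * ι b ∧
      ⁅τ (ι a) * (ι a)⁻¹, ι b⁆ = u) : False := by
  obtain ⟨u, huM, hu1, a, b, hau, hbu, hab⟩ := hfin
  obtain ⟨u, rfl⟩ := hMι huM
  let f := comapEquiv hι hMι
  have hsimple : IsSimpleGroup (M.comap ι) := isSimple_cgr0 f.symm hM.simple
  have hncomm : ¬ IsMulCommutative (M.comap ι) := fun h => hM.ncomm ⟨⟨fun a b => by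
    apply f.symm.injective
    rw [map_mul, map_mul]
    exact h.is_comm.comm _ _⟩⟩
  have hcard : Nat.card M < Nat.card K₀ := by
    have h1 : Nat.card (M.comap ι) = Nat.card M := Nat.card_congr f.toEquiv
    rw [← h1]
    have h2 : M.comap ι ≠ ⊤ := fun h => hMne (le_antisymm hMι (by
      rintro _ ⟨a, rfl⟩
      have : a ∈ M.comap ι := by rw [h]; exact mem_top _
      exact this))
    have h3 := Subgroup.card_le_card_group (M.comap ι)
    rcases lt_or_eq_of_le h3 with h | h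
    · exact h
    · exact (h2 (Subgroup.eq_top_of_card_eq _ h)).elim
  have hfinM : Finite M := Finite.of_equiv _ f.toEquiv
  have hRC : RC (M.comap ι) := RC.congr f.symm (hIH M hM hcard)
  refine out_killY hE e hx hcov (L := M.comap ι) hsimple hncomm hRC ?_ (i₀ := i₀) ?_ (u := u) huM
    (fun h => hu1 (by rw [h, map_one])) (a := a) (b := b) (hι ?_) (hι ?_) (k := 1) ?_
  · intro i c hc
    by_cases hi : i = i₀
    · subst hi
      show ι (act hE e (x i) c) ∈ M
      rw [← hτ, hMτ _ hc]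
      exact hc
    · obtain ⟨y, hy⟩ := hIn i hi
      obtain ⟨h1, h2⟩ := mem_L hE e hcen (hx.comm i₀ i) hτ hφ hy
      show ι (act hE e (x i) c) ∈ M
      rw [hy]
      exact hMn y h1 h2 _ hc
  · intro j hj hall
    obtain ⟨y, hy⟩ := hIn j hj
    obtain ⟨h1, h2⟩ := mem_L hE e hcen (hx.comm i₀ j) hτ hφ hy
    have h3 : y = 1 := by
      refine hMc y h1 h2 fun m hm => ?_
      obtain ⟨c, rfl⟩ := hMι hm
      have h4 := hall c hm
      have h5 := hy c
      rw [h4] at h5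
      calc y * ι c = y * ι c * y⁻¹ * y := by group
        _ = ι c * y := by rw [← h5]
    apply act_ne_one hE e (hx.ne j)
    refine MulEquiv.ext fun c => hι ?_
    rw [hy, h3]
    simp
  · rw [map_mul, map_mul]; exact hau
  · rw [map_mul, map_mul]; exact hbu
  · apply hι
    rw [map_commutatorElement, map_mul, map_inv, pow_one, ← hτ]
    exact hab

end abs

end Cfsg.Agent.H368.G3
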